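import Cfsg.Agent.H719.RowCases
import Cfsg.Agent.H719.AutInv
import Cfsg.Agent.S1054

/-!
# The row of E6: large fields (helper719)

Generated by a script.
-/

set_option autoImplicit false
set_option linter.unusedSectionVars false
set_option linter.unusedVariables false

namespace Cfsg.Agent.H719.RowE6

open Subgroup Cfsg Cfsg.Lie Cfsg.Lie.ChevalleyDatum
open Cfsg.Agent.ChevalleyStructure Cfsg.Agent.ChevalleyStructure.Elts Cfsg.Agent.ChevalleyStructure.CoxeterGeom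
  Cfsg.Agent.ChevalleyStructure.CoxeterGeomTypes
open Cfsg.Agent.Nodes.RGDChev
open Cfsg.Agent.H129.TorusChar
open Cfsg.Agent.H568 Cfsg.Agent.H568.FldExc Cfsg.Agent.H719

universe u

/-- primes dividing the order of the torus element -/
theorem ord1 {q P l : ℕ} (hP : (P : ℤ) = 1 + (q : ℤ) ^ 3 + (q : ℤ) ^ 6) (hl : l.Prime) (hlP : l ∣ red 3 P) :
    orderOf ((q : ℕ) : ZMod l) = 9 := by
  have : Fact l.Prime := ⟨hl⟩
  have hlP1 : l ∣ P := hlP.trans (red_dvd _ _)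
  refine Num.ord_9 ?_ ?_
  · have h0 : ((P : ℤ) : ZMod l) = 0 := by rw [Int.cast_natCast, ZMod.natCast_eq_zero_iff]; exact hlP1
    rw [hP] at h0
    push_cast at h0
    exact h0
  · intro h1
    have h2 : l ≤ 9 := Nat.le_of_dvd (by norm_num) h1
    have h3 : l = 3 := by
      clear hP hlP hlP1
      interval_cases l <;> first | omega | (exfalso; revert hl; norm_num)
    clear this
    rcases h3 with rfl
    · refine not_dvd_red (by norm_num) (not_dvd_of_zmod hP ?_) hlP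
      push_cast
      generalize (q : ZMod (3 ^ 2)) = x
      revert x
      decide +kernel

theorem div1 {q P l : ℕ} (hP : (P : ℤ) = 1 + (q : ℤ) ^ 3 + (q : ℤ) ^ 6) (hl : l.Prime) (hl10 : 10 ≤ l)
    (h : orderOf ((q : ℕ) : ZMod l) = 9) : l ∣ red 3 P := by
  have : Fact l.Prime := ⟨hl⟩
  refine dvd_red (by norm_num) hl (by omega) ?_
  rw [← ZMod.natCast_eq_zero_iff, ← Int.cast_natCast (R := ZMod l), hP]
  push_cast
  exact Num.phi_of_ord_9 h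

theorem div2 {q P l : ℕ} (hP : (P : ℤ) = 1 - (q : ℤ) ^ 2 + (q : ℤ) ^ 4) (hl : l.Prime) (hl10 : 10 ≤ l)
    (h : orderOf ((q : ℕ) : ZMod l) = 12) : l ∣ red 2 P := by
  have : Fact l.Prime := ⟨hl⟩
  refine dvd_red (by norm_num) hl (by omega) ?_
  rw [← ZMod.natCast_eq_zero_iff, ← Int.cast_natCast (R := ZMod l), hP]
  push_cast
  exact Num.phi_of_ord_12 h

theorem co {q N1 N2 p : ℕ} (hN1 : (N1 : ℤ) = 1 + (q : ℤ) ^ 3 + (q : ℤ) ^ 6) (hN2 : (N2 : ℤ) = 1 + (q : ℤ) - (q : ℤ) ^ 3 + (q : ℤ) ^ 5 + (q : ℤ) ^ 6)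
    (hp : p.Prime) (hp2 : p ≠ 2) (hp3 : p ≠ 3) (h1 : p ∣ N1) (h2 : p ∣ N2) : False := by
  have h3 : (p : ℤ) ∣ 3 := by
    have h4 : (-2 * (q : ℤ) - (q : ℤ) ^ 3 - 2 * (q : ℤ) ^ 5) * (N1 : ℤ) + (3 - (q : ℤ) + (q : ℤ) ^ 2 + 3 * (q : ℤ) ^ 3 - 2 * (q : ℤ) ^ 4 + 2 * (q : ℤ) ^ 5) * (N2 : ℤ) = 3 := by rw [hN1, hN2]; ring
    rw [← h4]
    exact dvd_add (Dvd.dvd.mul_left (Int.natCast_dvd_natCast.2 h1) _) (Dvd.dvd.mul_left (Int.natCast_dvd_natCast.2 h2) _)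
  have h4 : p ∣ 3 := by exact_mod_cast h3
  have h5 : p ≤ 3 := Nat.le_of_dvd (by norm_num) h4
  clear hN1 hN2 h1 h2 h3
  interval_cases p <;> first | omega | (revert hp; norm_num)

theorem ex {q : ℕ} (hq : 4 ≤ q) : ∃ P1 P2 N1 N2 : ℕ, (P1 : ℤ) = 1 + (q : ℤ) ^ 3 + (q : ℤ) ^ 6 ∧ (P2 : ℤ) = 1 - (q : ℤ) ^ 2 + (q : ℤ) ^ 4 ∧
    (N1 : ℤ) = 1 + (q : ℤ) ^ 3 + (q : ℤ) ^ 6 ∧ (N2 : ℤ) = 1 + (q : ℤ) - (q : ℤ) ^ 3 + (q : ℤ) ^ 5 + (q : ℤ) ^ 6 ∧ 78 < red 3 P1 ∧ 78 < red 2 P2 := by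
  obtain ⟨t, rfl⟩ := Nat.exists_eq_add_of_le' hq
  have eP1 : 1 + ((t + 4 : ℕ) : ℤ) ^ 3 + ((t + 4 : ℕ) : ℤ) ^ 6 = ((4161 + 6192 * t + 3852 * t ^ 2 + 1281 * t ^ 3 + 240 * t ^ 4 + 24 * t ^ 5 + t ^ 6 : ℕ) : ℤ) := by push_cast; ring
  have eP2 : 1 - ((t + 4 : ℕ) : ℤ) ^ 2 + ((t + 4 : ℕ) : ℤ) ^ 4 = ((241 + 248 * t + 95 * t ^ 2 + 16 * t ^ 3 + t ^ 4 : ℕ) : ℤ) := by push_cast; ring
  have eN1 : 1 + ((t + 4 : ℕ) : ℤ) ^ 3 + ((t + 4 : ℕ) : ℤ) ^ 6 = ((4161 + 6192 * t + 3852 * t ^ 2 + 1281 * t ^ 3 + 240 * t ^ 4 + 24 * t ^ 5 + t ^ 6 : ℕ) : ℤ) := by push_cast; ring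
  have eN2 : 1 + ((t + 4 : ℕ) : ℤ) - ((t + 4 : ℕ) : ℤ) ^ 3 + ((t + 4 : ℕ) : ℤ) ^ 5 + ((t + 4 : ℕ) : ℤ) ^ 6 = ((5061 + 7377 * t + 4468 * t ^ 2 + 1439 * t ^ 3 + 260 * t ^ 4 + 25 * t ^ 5 + t ^ 6 : ℕ) : ℤ) := by push_cast; ring
  refine ⟨_, _, _, _, eP1.symm, eP2.symm, eN1.symm, eN2.symm, ?_, ?_⟩
  · have h := le_mul_red (b := 3) (by norm_num) (4161 + 6192 * t + 3852 * t ^ 2 + 1281 * t ^ 3 + 240 * t ^ 4 + 24 * t ^ 5 + t ^ 6)
    have h2 : 0 ≤ 6192 * t + 3852 * t ^ 2 + 1281 * t ^ 3 + 240 * t ^ 4 + 24 * t ^ 5 + t ^ 6 := Nat.zero_le _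
    generalize red 3 _ = s at h ⊢
    omega
  · have h := le_mul_red (b := 2) (by norm_num) (241 + 248 * t + 95 * t ^ 2 + 16 * t ^ 3 + t ^ 4)
    have h2 : 0 ≤ 248 * t + 95 * t ^ 2 + 16 * t ^ 3 + t ^ 4 := Nat.zero_le _
    generalize red 2 _ = s at h ⊢
    omega

theorem hcen_dim : chevE6.rank + chevE6.nroots = 78 := rfl

theorem mod3 : ∀ x : ZMod 3, 1 + x ^ 3 + x ^ 6 = 0 → x = 1 := by decide +kernel

/-- **The row for large fields.** -/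
theorem row_big {F : Type u} [Field F] [Fintype F] [IsSimpleGroup ↥(chevE6.group F)] {r e : ℕ} [Fact r.Prime] [CharP F r]
    (hq : Fintype.card F = r ^ e) (he : 0 < e) (hqm : 4 ≤ Fintype.card F) {p : ℕ} [hpf : Fact p.Prime] (hp2 : p ≠ 2) (hp3 : p = 3 → ¬ 3 ∣ Fintype.card F - 1) :
    Row p ↥(chevE6.group F) := by
  have hp : IsType chevE6 6 CoxeterMatrix.E₆ := by simp [IsType, typeList]
  have hna : ¬ IsMulCommutative ↥(chevE6.group F) := (Cfsg.Agent.S1054.result chevE6 (by simp)).2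
  obtain ⟨P1, P2, N1, N2, hP1, hP2, hN1, hN2, hd1, hd2⟩ := ex hqm
  have hT1 := hasT_E6_9 (F := F) rfl hN1 hP1
  have hT2 := hasT_E6_12 (F := F) rfl hN2 hP2
  have hrq : r ∣ Fintype.card F := hq ▸ dvd_pow_self r he.ne'
  have hrN : ¬ r ∣ N1 := by
    intro h1
    have h2 : (Fintype.card F).Coprime N1 := coprime_of_eq (a := (Fintype.card F : ℤ) ^ 2 + (Fintype.card F : ℤ) ^ 5) (b := 1) (by rw [hN1]; ring)
    have h3 : r ∣ 1 := h2 ▸ Nat.dvd_gcd hrq h1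
    exact (Fact.out : r.Prime).one_lt.ne' (Nat.dvd_one.1 h3)
  have hco : p ∣ N1 → p ∣ N2 → False := by
    intro h1 h2
    by_cases h3 : p = 3
    · subst h3
      have h4 := hp3 rfl
      have h5 : ((N1 : ℤ) : ZMod 3) = 0 := by rw [Int.cast_natCast, ZMod.natCast_eq_zero_iff]; exact h1
      rw [hN1] at h5
      push_cast at h5
      have h6 : ((Fintype.card F : ℕ) : ZMod 3) = 1 := mod3 _ h5
      apply h4
      rw [← ZMod.natCast_eq_zero_iff, Nat.cast_sub (by omega), h6]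
      simp
    · exact co hN1 hN2 hpf.1 hp2 h3 h1 h2
  rw [← hcen_dim] at hd1 hd2
  have hown : ∀ {l : ℕ}, l.Prime → ∀ {x : ↥(chevE6.group F)}, orderOf x = l →
      (∀ y : ↥(chevE6.group F), orderOf y = r → x * y ≠ y * x) → (∀ k, l ∣ Nat.card F ^ k - 1 → 9 ∣ k) → NoNorm r x :=
    fun hl _ hx hcen hord => noNorm_E6 r hl hx hcen (Or.inl rfl) hord
  have hq1 : 1 ≤ Fintype.card F := by omega
  have hc : p.Coprime 3 ∨ ∀ a : F, ∃ b : F, b ^ 3 = a := by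
    by_cases h3 : p = 3
    · right
      exact cube_root (by rw [Nat.card_eq_fintype_card]; exact hp3 h3)
    · left
      rw [Nat.coprime_primes hpf.1 Nat.prime_three]
      exact h3
  refine row_gen hp hna hq he invC_E6 (by norm_num) (AutInv.inv_E6 _) ordF_E6 hp2 hc ?_ ?_
  · intro _ _
    obtain ⟨l1, hl1, hlP⟩ := Nat.exists_prime_and_dvd (n := red 3 P1) (by rw [hcen_dim] at hd1; omega)
    have hord : ∀ k, l1 ∣ Nat.card F ^ k - 1 → 9 ∣ k := by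
      intro k hk
      rw [Nat.card_eq_fintype_card, Cfsg.Agent.Lib.Zsigmondy.dvd_pow_sub_one_iff hq1, ord1 hP1 hl1 hlP] at hk
      exact hk
    exact Or.inr (inner_case hT1 hT2 hrN hco hd1 hd2 hl1 hlP hord hown)
  · intro hpe
    have he3 : 3 ≤ e := by
      have h1 := Nat.le_of_dvd he hpe
      have h2 := hpf.1.two_le
      omega
    obtain ⟨l1, hl1, hm1, hl10, hlr1, ho1⟩ := exists_prim (r := r) (e := e) (h := 9) Fact.out he3 (by norm_num)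
    obtain ⟨l2, hl2, hm2, hl20, hlr2, ho2⟩ := exists_prim (r := r) (e := e) (h := 12) Fact.out he3 (by norm_num)
    rw [← hq] at ho1 ho2
    have hL1 : PrimL r e 3 [2, 5, 6, 8, 9, 12] l1 := ⟨hl1, hlr1, (Nat.coprime_primes hl1 Nat.prime_three).2 (by omega), 9, fun m hm => (hm1 m).1 hm, by decide⟩
    have hL2 : PrimL r e 3 [2, 5, 6, 8, 9, 12] l2 := ⟨hl2, hlr2, (Nat.coprime_primes hl2 Nat.prime_three).2 (by omega), 12, fun m hm => (hm2 m).1 hm, by decide⟩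
    refine field_case hT1 hT2 hrN hco hd1 hd2 hL1 (div1 hP1 hl1 hl10 ho1) hL2 (div2 hP2 hl2 hl20 ho2) ?_ hown
    intro k hk
    rw [Nat.card_eq_fintype_card, Cfsg.Agent.Lib.Zsigmondy.dvd_pow_sub_one_iff hq1, ho1] at hk
    exact hk

end Cfsg.Agent.H719.RowE6
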