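import Cfsg.Agent.H719.RowCases
import Cfsg.Agent.H719.AutInv
import Cfsg.Agent.S1054

/-!
# The row of E7: large fields (helper719)

Generated by a script.
-/

set_option autoImplicit false
set_option linter.unusedSectionVars false
set_option linter.unusedVariables false

namespace Cfsg.Agent.H719.RowE7

open Subgroup Cfsg Cfsg.Lie Cfsg.Lie.ChevalleyDatum
open Cfsg.Agent.ChevalleyStructure Cfsg.Agent.ChevalleyStructure.Elts Cfsg.Agent.ChevalleyStructure.CoxeterGeom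
  Cfsg.Agent.ChevalleyStructure.CoxeterGeomTypes
open Cfsg.Agent.Nodes.RGDChev
open Cfsg.Agent.H129.TorusChar
open Cfsg.Agent.H568 Cfsg.Agent.H568.FldExc Cfsg.Agent.H719

universe u

/-- primes dividing the order of the torus element -/
theorem ord1 {q P l : ℕ} (hP : (P : ℤ) = 1 - (q : ℤ) + (q : ℤ) ^ 2 - (q : ℤ) ^ 3 + (q : ℤ) ^ 4 - (q : ℤ) ^ 5 + (q : ℤ) ^ 6) (hl : l.Prime) (hlP : l ∣ red 7 P) :
    orderOf ((q : ℕ) : ZMod l) = 14 := by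
  have : Fact l.Prime := ⟨hl⟩
  have hlP1 : l ∣ P := hlP.trans (red_dvd _ _)
  refine Num.ord_14 ?_ ?_
  · have h0 : ((P : ℤ) : ZMod l) = 0 := by rw [Int.cast_natCast, ZMod.natCast_eq_zero_iff]; exact hlP1
    rw [hP] at h0
    push_cast at h0
    exact h0
  · intro h1
    have h2 : l ≤ 14 := Nat.le_of_dvd (by norm_num) h1
    have h3 : l = 2 ∨ l = 7 := by
      clear hP hlP hlP1
      interval_cases l <;> first | omega | (exfalso; revert hl; norm_num)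
    clear this
    rcases h3 with rfl | rfl
    · refine not_dvd_of_zmod hP ?_ hlP1
      push_cast
      generalize (q : ZMod 2) = x
      revert x
      decide +kernel
    · refine not_dvd_red (by norm_num) (not_dvd_of_zmod hP ?_) hlP
      push_cast
      generalize (q : ZMod (7 ^ 2)) = x
      revert x
      decide +kernel

theorem div1 {q P l : ℕ} (hP : (P : ℤ) = 1 - (q : ℤ) + (q : ℤ) ^ 2 - (q : ℤ) ^ 3 + (q : ℤ) ^ 4 - (q : ℤ) ^ 5 + (q : ℤ) ^ 6) (hl : l.Prime) (hl10 : 10 ≤ l)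
    (h : orderOf ((q : ℕ) : ZMod l) = 14) : l ∣ red 7 P := by
  have : Fact l.Prime := ⟨hl⟩
  refine dvd_red (by norm_num) hl (by omega) ?_
  rw [← ZMod.natCast_eq_zero_iff, ← Int.cast_natCast (R := ZMod l), hP]
  push_cast
  exact Num.phi_of_ord_14 h

theorem div2 {q P l : ℕ} (hP : (P : ℤ) = 1 + (q : ℤ) + (q : ℤ) ^ 2 + (q : ℤ) ^ 3 + (q : ℤ) ^ 4 + (q : ℤ) ^ 5 + (q : ℤ) ^ 6) (hl : l.Prime) (hl10 : 10 ≤ l)
    (h : orderOf ((q : ℕ) : ZMod l) = 7) : l ∣ red 7 P := by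
  have : Fact l.Prime := ⟨hl⟩
  refine dvd_red (by norm_num) hl (by omega) ?_
  rw [← ZMod.natCast_eq_zero_iff, ← Int.cast_natCast (R := ZMod l), hP]
  push_cast
  exact Num.phi_of_ord_7 h

theorem co {q N1 N2 p : ℕ} (hN1 : (N1 : ℤ) = 1 + (q : ℤ) ^ 7) (hN2 : (N2 : ℤ) = -1 + (q : ℤ) ^ 7)
    (hp : p.Prime) (hp2 : p ≠ 2) (h1 : p ∣ N1) (h2 : p ∣ N2) : False := by
  have h3 : (p : ℤ) ∣ 2 := by
    have h4 : (1) * (N1 : ℤ) + (-1) * (N2 : ℤ) = 2 := by rw [hN1, hN2]; ring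
    rw [← h4]
    exact dvd_add (Dvd.dvd.mul_left (Int.natCast_dvd_natCast.2 h1) _) (Dvd.dvd.mul_left (Int.natCast_dvd_natCast.2 h2) _)
  have h4 : p ∣ 2 := by exact_mod_cast h3
  have h5 : p ≤ 2 := Nat.le_of_dvd (by norm_num) h4
  clear hN1 hN2 h1 h2 h3
  interval_cases p <;> first | omega | (revert hp; norm_num)

theorem ex {q : ℕ} (hq : 4 ≤ q) : ∃ P1 P2 N1 N2 : ℕ, (P1 : ℤ) = 1 - (q : ℤ) + (q : ℤ) ^ 2 - (q : ℤ) ^ 3 + (q : ℤ) ^ 4 - (q : ℤ) ^ 5 + (q : ℤ) ^ 6 ∧ (P2 : ℤ) = 1 + (q : ℤ) + (q : ℤ) ^ 2 + (q : ℤ) ^ 3 + (q : ℤ) ^ 4 + (q : ℤ) ^ 5 + (q : ℤ) ^ 6 ∧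
    (N1 : ℤ) = 1 + (q : ℤ) ^ 7 ∧ (N2 : ℤ) = -1 + (q : ℤ) ^ 7 ∧ 133 < red 7 P1 ∧ 133 < red 7 P2 := by
  obtain ⟨t, rfl⟩ := Nat.exists_eq_add_of_le' hq
  have eP1 : 1 - ((t + 4 : ℕ) : ℤ) + ((t + 4 : ℕ) : ℤ) ^ 2 - ((t + 4 : ℕ) : ℤ) ^ 3 + ((t + 4 : ℕ) : ℤ) ^ 4 - ((t + 4 : ℕ) : ℤ) ^ 5 + ((t + 4 : ℕ) : ℤ) ^ 6 = ((3277 + 5079 * t + 3285 * t ^ 2 + 1135 * t ^ 3 + 221 * t ^ 4 + 23 * t ^ 5 + t ^ 6 : ℕ) : ℤ) := by push_cast; ring
  have eP2 : 1 + ((t + 4 : ℕ) : ℤ) + ((t + 4 : ℕ) : ℤ) ^ 2 + ((t + 4 : ℕ) : ℤ) ^ 3 + ((t + 4 : ℕ) : ℤ) ^ 4 + ((t + 4 : ℕ) : ℤ) ^ 5 + ((t + 4 : ℕ) : ℤ) ^ 6 = ((5461 + 7737 * t + 4589 * t ^ 2 + 1457 * t ^ 3 + 261 * t ^ 4 + 25 * t ^ 5 + t ^ 6 : ℕ) : ℤ) := by push_cast; ring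
  have eN1 : 1 + ((t + 4 : ℕ) : ℤ) ^ 7 = ((16385 + 28672 * t + 21504 * t ^ 2 + 8960 * t ^ 3 + 2240 * t ^ 4 + 336 * t ^ 5 + 28 * t ^ 6 + t ^ 7 : ℕ) : ℤ) := by push_cast; ring
  have eN2 : -1 + ((t + 4 : ℕ) : ℤ) ^ 7 = ((16383 + 28672 * t + 21504 * t ^ 2 + 8960 * t ^ 3 + 2240 * t ^ 4 + 336 * t ^ 5 + 28 * t ^ 6 + t ^ 7 : ℕ) : ℤ) := by push_cast; ring
  refine ⟨_, _, _, _, eP1.symm, eP2.symm, eN1.symm, eN2.symm, ?_, ?_⟩
  · have h := le_mul_red (b := 7) (by norm_num) (3277 + 5079 * t + 3285 * t ^ 2 + 1135 * t ^ 3 + 221 * t ^ 4 + 23 * t ^ 5 + t ^ 6)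
    have h2 : 0 ≤ 5079 * t + 3285 * t ^ 2 + 1135 * t ^ 3 + 221 * t ^ 4 + 23 * t ^ 5 + t ^ 6 := Nat.zero_le _
    generalize red 7 _ = s at h ⊢
    omega
  · have h := le_mul_red (b := 7) (by norm_num) (5461 + 7737 * t + 4589 * t ^ 2 + 1457 * t ^ 3 + 261 * t ^ 4 + 25 * t ^ 5 + t ^ 6)
    have h2 : 0 ≤ 7737 * t + 4589 * t ^ 2 + 1457 * t ^ 3 + 261 * t ^ 4 + 25 * t ^ 5 + t ^ 6 := Nat.zero_le _
    generalize red 7 _ = s at h ⊢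
    omega

theorem hcen_dim : chevE7.rank + chevE7.nroots = 133 := rfl

/-- **The row for large fields.** -/
theorem row_big {F : Type u} [Field F] [Fintype F] [IsSimpleGroup ↥(chevE7.group F)] {r e : ℕ} [Fact r.Prime] [CharP F r]
    (hq : Fintype.card F = r ^ e) (he : 0 < e) (hqm : 4 ≤ Fintype.card F) {p : ℕ} [hpf : Fact p.Prime] (hp2 : p ≠ 2) :
    Row p ↥(chevE7.group F) := by
  have hp : IsType chevE7 7 CoxeterMatrix.E₇ := by simp [IsType, typeList]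
  have hna : ¬ IsMulCommutative ↥(chevE7.group F) := (Cfsg.Agent.S1054.result chevE7 (by simp)).2
  obtain ⟨P1, P2, N1, N2, hP1, hP2, hN1, hN2, hd1, hd2⟩ := ex hqm
  have hT1 := hasT_E7_14 (F := F) rfl hN1 hP1
  have hT2 := hasT_E7_7 (F := F) rfl hN2 hP2
  have hrq : r ∣ Fintype.card F := hq ▸ dvd_pow_self r he.ne'
  have hrN : ¬ r ∣ N1 := by
    intro h1
    have h2 : (Fintype.card F).Coprime N1 := coprime_of_eq (a := (Fintype.card F : ℤ) ^ 6) (b := 1) (by rw [hN1]; ring)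
    have h3 : r ∣ 1 := h2 ▸ Nat.dvd_gcd hrq h1
    exact (Fact.out : r.Prime).one_lt.ne' (Nat.dvd_one.1 h3)
  have hco : p ∣ N1 → p ∣ N2 → False := fun h1 h2 => co hN1 hN2 hpf.1 hp2 h1 h2
  rw [← hcen_dim] at hd1 hd2
  have hown : ∀ {l : ℕ}, l.Prime → ∀ {x : ↥(chevE7.group F)}, orderOf x = l →
      (∀ y : ↥(chevE7.group F), orderOf y = r → x * y ≠ y * x) → (∀ k, l ∣ Nat.card F ^ k - 1 → 14 ∣ k) → NoNorm r x :=
    fun hl _ hx hcen hord => noNorm_E7 r hl hx hcen (Or.inl rfl) hord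
  have hq1 : 1 ≤ Fintype.card F := by omega
  have hc : p.Coprime 2 ∨ ∀ a : F, ∃ b : F, b ^ 2 = a := by
    left
    rw [Nat.coprime_primes hpf.1 Nat.prime_two]
    exact hp2
  refine row_gen hp hna hq he invC_E7 (by norm_num) (AutInv.inv_E7 _) ordF_E7 hp2 hc ?_ ?_
  · intro _ _
    obtain ⟨l1, hl1, hlP⟩ := Nat.exists_prime_and_dvd (n := red 7 P1) (by rw [hcen_dim] at hd1; omega)
    have hord : ∀ k, l1 ∣ Nat.card F ^ k - 1 → 14 ∣ k := by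
      intro k hk
      rw [Nat.card_eq_fintype_card, Cfsg.Agent.Lib.Zsigmondy.dvd_pow_sub_one_iff hq1, ord1 hP1 hl1 hlP] at hk
      exact hk
    exact Or.inr (inner_case hT1 hT2 hrN hco hd1 hd2 hl1 hlP hord hown)
  · intro hpe
    have he3 : 3 ≤ e := by
      have h1 := Nat.le_of_dvd he hpe
      have h2 := hpf.1.two_le
      omega
    obtain ⟨l1, hl1, hm1, hl10, hlr1, ho1⟩ := exists_prim (r := r) (e := e) (h := 14) Fact.out he3 (by norm_num)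
    obtain ⟨l2, hl2, hm2, hl20, hlr2, ho2⟩ := exists_prim (r := r) (e := e) (h := 7) Fact.out he3 (by norm_num)
    rw [← hq] at ho1 ho2
    have hL1 : PrimL r e 2 [2, 6, 8, 10, 12, 14, 18] l1 := ⟨hl1, hlr1, (Nat.coprime_primes hl1 Nat.prime_two).2 (by omega), 14, fun m hm => (hm1 m).1 hm, by decide⟩
    have hL2 : PrimL r e 2 [2, 6, 8, 10, 12, 14, 18] l2 := ⟨hl2, hlr2, (Nat.coprime_primes hl2 Nat.prime_two).2 (by omega), 7, fun m hm => (hm2 m).1 hm, by decide⟩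
    refine field_case hT1 hT2 hrN hco hd1 hd2 hL1 (div1 hP1 hl1 hl10 ho1) hL2 (div2 hP2 hl2 hl20 ho2) ?_ hown
    intro k hk
    rw [Nat.card_eq_fintype_card, Cfsg.Agent.Lib.Zsigmondy.dvd_pow_sub_one_iff hq1, ho1] at hk
    exact hk

end Cfsg.Agent.H719.RowE7
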