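import Cfsg.Agent.H719.RowCases
import Cfsg.Agent.H719.AutInv
import Cfsg.Agent.S1054

/-!
# The row of E8: large fields (helper719)

Generated by a script.
-/

set_option autoImplicit false
set_option linter.unusedSectionVars false
set_option linter.unusedVariables false

namespace Cfsg.Agent.H719.RowE8

open Subgroup Cfsg Cfsg.Lie Cfsg.Lie.ChevalleyDatum
open Cfsg.Agent.ChevalleyStructure Cfsg.Agent.ChevalleyStructure.Elts Cfsg.Agent.ChevalleyStructure.CoxeterGeom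
  Cfsg.Agent.ChevalleyStructure.CoxeterGeomTypes
open Cfsg.Agent.Nodes.RGDChev
open Cfsg.Agent.H129.TorusChar
open Cfsg.Agent.H568 Cfsg.Agent.H568.FldExc Cfsg.Agent.H719

universe u

/-- primes dividing the order of the torus element -/
theorem ord1 {q P l : ℕ} (hP : (P : ℤ) = 1 + (q : ℤ) - (q : ℤ) ^ 3 - (q : ℤ) ^ 4 - (q : ℤ) ^ 5 + (q : ℤ) ^ 7 + (q : ℤ) ^ 8) (hl : l.Prime) (hlP : l ∣ red 2 P) :
    orderOf ((q : ℕ) : ZMod l) = 30 := by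
  have : Fact l.Prime := ⟨hl⟩
  have hlP1 : l ∣ P := hlP.trans (red_dvd _ _)
  refine Num.ord_30 ?_ ?_
  · have h0 : ((P : ℤ) : ZMod l) = 0 := by rw [Int.cast_natCast, ZMod.natCast_eq_zero_iff]; exact hlP1
    rw [hP] at h0
    push_cast at h0
    exact h0
  · intro h1
    have h2 : l ≤ 30 := Nat.le_of_dvd (by norm_num) h1
    have h3 : l = 2 ∨ l = 3 ∨ l = 5 := by
      clear hP hlP hlP1
      interval_cases l <;> first | omega | (exfalso; revert hl; norm_num)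
    clear this
    rcases h3 with rfl | rfl | rfl
    · refine not_dvd_of_zmod hP ?_ hlP1
      push_cast
      generalize (q : ZMod 2) = x
      revert x
      decide +kernel
    · refine not_dvd_of_zmod hP ?_ hlP1
      push_cast
      generalize (q : ZMod 3) = x
      revert x
      decide +kernel
    · refine not_dvd_of_zmod hP ?_ hlP1
      push_cast
      generalize (q : ZMod 5) = x
      revert x
      decide +kernel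

theorem div1 {q P l : ℕ} (hP : (P : ℤ) = 1 + (q : ℤ) - (q : ℤ) ^ 3 - (q : ℤ) ^ 4 - (q : ℤ) ^ 5 + (q : ℤ) ^ 7 + (q : ℤ) ^ 8) (hl : l.Prime) (hl10 : 10 ≤ l)
    (h : orderOf ((q : ℕ) : ZMod l) = 30) : l ∣ red 2 P := by
  have : Fact l.Prime := ⟨hl⟩
  refine dvd_red (by norm_num) hl (by omega) ?_
  rw [← ZMod.natCast_eq_zero_iff, ← Int.cast_natCast (R := ZMod l), hP]
  push_cast
  exact Num.phi_of_ord_30 h

theorem div2 {q P l : ℕ} (hP : (P : ℤ) = 1 - (q : ℤ) ^ 4 + (q : ℤ) ^ 8) (hl : l.Prime) (hl10 : 10 ≤ l)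
    (h : orderOf ((q : ℕ) : ZMod l) = 24) : l ∣ red 2 P := by
  have : Fact l.Prime := ⟨hl⟩
  refine dvd_red (by norm_num) hl (by omega) ?_
  rw [← ZMod.natCast_eq_zero_iff, ← Int.cast_natCast (R := ZMod l), hP]
  push_cast
  exact Num.phi_of_ord_24 h

theorem co {q N1 N2 p : ℕ} (hN1 : (N1 : ℤ) = 1 + (q : ℤ) - (q : ℤ) ^ 3 - (q : ℤ) ^ 4 - (q : ℤ) ^ 5 + (q : ℤ) ^ 7 + (q : ℤ) ^ 8) (hN2 : (N2 : ℤ) = 1 - (q : ℤ) ^ 4 + (q : ℤ) ^ 8)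
    (hp : p.Prime) (hp2 : p ≠ 2) (h1 : p ∣ N1) (h2 : p ∣ N2) : False := by
  have h3 : (p : ℤ) ∣ 1 := by
    have h4 : (-(q : ℤ) + (q : ℤ) ^ 5 + (q : ℤ) ^ 7) * (N1 : ℤ) + (1 + (q : ℤ) + (q : ℤ) ^ 2 - (q : ℤ) ^ 5 - (q : ℤ) ^ 6 - (q : ℤ) ^ 7) * (N2 : ℤ) = 1 := by rw [hN1, hN2]; ring
    rw [← h4]
    exact dvd_add (Dvd.dvd.mul_left (Int.natCast_dvd_natCast.2 h1) _) (Dvd.dvd.mul_left (Int.natCast_dvd_natCast.2 h2) _)
  have h4 : p ∣ 1 := by exact_mod_cast h3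
  have h5 : p ≤ 1 := Nat.le_of_dvd (by norm_num) h4
  clear hN1 hN2 h1 h2 h3
  interval_cases p <;> first | omega | (revert hp; norm_num)

theorem ex {q : ℕ} (hq : 3 ≤ q) : ∃ P1 P2 N1 N2 : ℕ, (P1 : ℤ) = 1 + (q : ℤ) - (q : ℤ) ^ 3 - (q : ℤ) ^ 4 - (q : ℤ) ^ 5 + (q : ℤ) ^ 7 + (q : ℤ) ^ 8 ∧ (P2 : ℤ) = 1 - (q : ℤ) ^ 4 + (q : ℤ) ^ 8 ∧
    (N1 : ℤ) = 1 + (q : ℤ) - (q : ℤ) ^ 3 - (q : ℤ) ^ 4 - (q : ℤ) ^ 5 + (q : ℤ) ^ 7 + (q : ℤ) ^ 8 ∧ (N2 : ℤ) = 1 - (q : ℤ) ^ 4 + (q : ℤ) ^ 8 ∧ 248 < red 2 P1 ∧ 248 < red 2 P2 := by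
  obtain ⟨t, rfl⟩ := Nat.exists_eq_add_of_le' hq
  have eP1 : 1 + ((t + 3 : ℕ) : ℤ) - ((t + 3 : ℕ) : ℤ) ^ 3 - ((t + 3 : ℕ) : ℤ) ^ 4 - ((t + 3 : ℕ) : ℤ) ^ 5 + ((t + 3 : ℕ) : ℤ) ^ 7 + ((t + 3 : ℕ) : ℤ) ^ 8 = ((8401 + 22060 * t + 25182 * t ^ 2 + 16340 * t ^ 3 + 6599 * t ^ 4 + 1700 * t ^ 5 + 273 * t ^ 6 + 25 * t ^ 7 + t ^ 8 : ℕ) : ℤ) := by push_cast; ring
  have eP2 : 1 - ((t + 3 : ℕ) : ℤ) ^ 4 + ((t + 3 : ℕ) : ℤ) ^ 8 = ((6481 + 17388 * t + 20358 * t ^ 2 + 13596 * t ^ 3 + 5669 * t ^ 4 + 1512 * t ^ 5 + 252 * t ^ 6 + 24 * t ^ 7 + t ^ 8 : ℕ) : ℤ) := by push_cast; ring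
  have eN1 : 1 + ((t + 3 : ℕ) : ℤ) - ((t + 3 : ℕ) : ℤ) ^ 3 - ((t + 3 : ℕ) : ℤ) ^ 4 - ((t + 3 : ℕ) : ℤ) ^ 5 + ((t + 3 : ℕ) : ℤ) ^ 7 + ((t + 3 : ℕ) : ℤ) ^ 8 = ((8401 + 22060 * t + 25182 * t ^ 2 + 16340 * t ^ 3 + 6599 * t ^ 4 + 1700 * t ^ 5 + 273 * t ^ 6 + 25 * t ^ 7 + t ^ 8 : ℕ) : ℤ) := by push_cast; ring
  have eN2 : 1 - ((t + 3 : ℕ) : ℤ) ^ 4 + ((t + 3 : ℕ) : ℤ) ^ 8 = ((6481 + 17388 * t + 20358 * t ^ 2 + 13596 * t ^ 3 + 5669 * t ^ 4 + 1512 * t ^ 5 + 252 * t ^ 6 + 24 * t ^ 7 + t ^ 8 : ℕ) : ℤ) := by push_cast; ring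
  refine ⟨_, _, _, _, eP1.symm, eP2.symm, eN1.symm, eN2.symm, ?_, ?_⟩
  · have h := le_mul_red (b := 2) (by norm_num) (8401 + 22060 * t + 25182 * t ^ 2 + 16340 * t ^ 3 + 6599 * t ^ 4 + 1700 * t ^ 5 + 273 * t ^ 6 + 25 * t ^ 7 + t ^ 8)
    have h2 : 0 ≤ 22060 * t + 25182 * t ^ 2 + 16340 * t ^ 3 + 6599 * t ^ 4 + 1700 * t ^ 5 + 273 * t ^ 6 + 25 * t ^ 7 + t ^ 8 := Nat.zero_le _
    generalize red 2 _ = s at h ⊢
    omega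
  · have h := le_mul_red (b := 2) (by norm_num) (6481 + 17388 * t + 20358 * t ^ 2 + 13596 * t ^ 3 + 5669 * t ^ 4 + 1512 * t ^ 5 + 252 * t ^ 6 + 24 * t ^ 7 + t ^ 8)
    have h2 : 0 ≤ 17388 * t + 20358 * t ^ 2 + 13596 * t ^ 3 + 5669 * t ^ 4 + 1512 * t ^ 5 + 252 * t ^ 6 + 24 * t ^ 7 + t ^ 8 := Nat.zero_le _
    generalize red 2 _ = s at h ⊢
    omega

theorem hcen_dim : chevE8.rank + chevE8.nroots = 248 := rfl

/-- **The row for large fields.** -/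
theorem row_big {F : Type u} [Field F] [Fintype F] [IsSimpleGroup ↥(chevE8.group F)] {r e : ℕ} [Fact r.Prime] [CharP F r]
    (hq : Fintype.card F = r ^ e) (he : 0 < e) (hqm : 3 ≤ Fintype.card F) {p : ℕ} [hpf : Fact p.Prime] (hp2 : p ≠ 2) :
    Row p ↥(chevE8.group F) := by
  have hp : IsType chevE8 8 CoxeterMatrix.E₈ := by simp [IsType, typeList]
  have hna : ¬ IsMulCommutative ↥(chevE8.group F) := (Cfsg.Agent.S1054.result chevE8 (by simp)).2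
  obtain ⟨P1, P2, N1, N2, hP1, hP2, hN1, hN2, hd1, hd2⟩ := ex hqm
  have hT1 := hasT_E8_30 (F := F) rfl hN1 hP1
  have hT2 := hasT_E8_24 (F := F) rfl hN2 hP2
  have hrq : r ∣ Fintype.card F := hq ▸ dvd_pow_self r he.ne'
  have hrN : ¬ r ∣ N1 := by
    intro h1
    have h2 : (Fintype.card F).Coprime N1 := coprime_of_eq (a := 1 - (Fintype.card F : ℤ) ^ 2 - (Fintype.card F : ℤ) ^ 3 - (Fintype.card F : ℤ) ^ 4 + (Fintype.card F : ℤ) ^ 6 + (Fintype.card F : ℤ) ^ 7) (b := 1) (by rw [hN1]; ring)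
    have h3 : r ∣ 1 := h2 ▸ Nat.dvd_gcd hrq h1
    exact (Fact.out : r.Prime).one_lt.ne' (Nat.dvd_one.1 h3)
  have hco : p ∣ N1 → p ∣ N2 → False := fun h1 h2 => co hN1 hN2 hpf.1 hp2 h1 h2
  rw [← hcen_dim] at hd1 hd2
  have hown : ∀ {l : ℕ}, l.Prime → ∀ {x : ↥(chevE8.group F)}, orderOf x = l →
      (∀ y : ↥(chevE8.group F), orderOf y = r → x * y ≠ y * x) → (∀ k, l ∣ Nat.card F ^ k - 1 → 30 ∣ k) → NoNorm r x :=
    fun hl _ hx hcen hord => noNorm_E8 r hl hx hcen (Or.inr rfl) hord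
  have hq1 : 1 ≤ Fintype.card F := by omega
  have hc : p.Coprime 1 ∨ ∀ a : F, ∃ b : F, b ^ 1 = a := Or.inl (Nat.coprime_one_right p)
  refine row_gen hp hna hq he invC_E8 (by norm_num) (AutInv.inv_E8 _) ordF_E8 hp2 hc ?_ ?_
  · intro _ _
    obtain ⟨l1, hl1, hlP⟩ := Nat.exists_prime_and_dvd (n := red 2 P1) (by rw [hcen_dim] at hd1; omega)
    have hord : ∀ k, l1 ∣ Nat.card F ^ k - 1 → 30 ∣ k := by
      intro k hk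
      rw [Nat.card_eq_fintype_card, Cfsg.Agent.Lib.Zsigmondy.dvd_pow_sub_one_iff hq1, ord1 hP1 hl1 hlP] at hk
      exact hk
    exact Or.inr (inner_case hT1 hT2 hrN hco hd1 hd2 hl1 hlP hord hown)
  · intro hpe
    have he3 : 3 ≤ e := by
      have h1 := Nat.le_of_dvd he hpe
      have h2 := hpf.1.two_le
      omega
    obtain ⟨l1, hl1, hm1, hl10, hlr1, ho1⟩ := exists_prim (r := r) (e := e) (h := 30) Fact.out he3 (by norm_num)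
    obtain ⟨l2, hl2, hm2, hl20, hlr2, ho2⟩ := exists_prim (r := r) (e := e) (h := 24) Fact.out he3 (by norm_num)
    rw [← hq] at ho1 ho2
    have hL1 : PrimL r e 1 [2, 8, 12, 14, 18, 20, 24, 30] l1 := ⟨hl1, hlr1, Nat.coprime_one_right _, 30, fun m hm => (hm1 m).1 hm, by decide⟩
    have hL2 : PrimL r e 1 [2, 8, 12, 14, 18, 20, 24, 30] l2 := ⟨hl2, hlr2, Nat.coprime_one_right _, 24, fun m hm => (hm2 m).1 hm, by decide⟩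
    refine field_case hT1 hT2 hrN hco hd1 hd2 hL1 (div1 hP1 hl1 hl10 ho1) hL2 (div2 hP2 hl2 hl20 ho2) ?_ hown
    intro k hk
    rw [Nat.card_eq_fintype_card, Cfsg.Agent.Lib.Zsigmondy.dvd_pow_sub_one_iff hq1, ho1] at hk
    exact hk

end Cfsg.Agent.H719.RowE8
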