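import Cfsg.Agent.H719.BigE6
import Cfsg.Agent.S1063

/-!
# The row of E6 (helper719)
-/

set_option autoImplicit false
set_option linter.unusedSectionVars false
set_option linter.unusedVariables false

namespace Cfsg.Agent.H719.RowE6

open Subgroup Cfsg Cfsg.Lie Cfsg.Lie.ChevalleyDatum
open Cfsg.Agent.ChevalleyStructure Cfsg.Agent.ChevalleyStructure.Elts Cfsg.Agent.ChevalleyStructure.CoxeterGeom
  Cfsg.Agent.ChevalleyStructure.CoxeterGeomTypes
open Cfsg.Agent.Nodes.RGDChev
open Cfsg.Agent.H129.TorusChar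
open Cfsg.Agent.H568 Cfsg.Agent.H568.FldExc Cfsg.Agent.H719

universe u

theorem row_small {F : Type u} [Field F] [Fintype F] [IsSimpleGroup ↥(chevE6.group F)] {r e : ℕ} [Fact r.Prime] [CharP F r]
    (hq : Fintype.card F = r ^ e) (he : 0 < e) (hqm : Fintype.card F ≤ 3) {p : ℕ} [hpf : Fact p.Prime] (hp2 : p ≠ 2) :
    Row p ↥(chevE6.group F) := by
  have hp : IsType chevE6 6 CoxeterMatrix.E₆ := by simp [IsType, typeList]
  have hna : ¬ IsMulCommutative ↥(chevE6.group F) := (Cfsg.Agent.S1054.result chevE6 (by simp)).2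
  have hq2 : 2 ≤ Fintype.card F := Fintype.one_lt_card
  have h23 : Fintype.card F = 2 ∨ Fintype.card F = 3 := by omega
  have hc : p.Coprime 3 ∨ ∀ a : F, ∃ b : F, b ^ 3 = a := by
    right
    refine cube_root ?_
    rw [Nat.card_eq_fintype_card]
    rcases h23 with h | h <;> rw [h] <;> norm_num
  refine row_gen hp hna hq he invC_E6 (by norm_num) (AutInv.inv_E6 _) ordF_E6 hp2 hc ?_
    fun h => (small_e Fact.out hq (by omega) he hpf.1 hp2 h).elim
  intro _ _
  rcases h23 with h2 | h3
  · have hT : HasT ↥(chevE6.group F) 73 (red 3 73) := hasT_E6_9 h2 (by norm_num) (by norm_num)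
    rw [red_of_not_dvd (by norm_num)] at hT
    have hcard := Cfsg.Agent.S1063.result (F := F) h2
    norm_num at hcard
    refine small_case hT (by norm_num) (fun h => (Nat.prime_dvd_prime_iff_eq hpf.1 (by norm_num)).1 h)
      hcard ?_
    intro hpl
    exact ord_of_facs [(2, 36), (3, 6), (5, 2), (7, 3), (13, 1), (17, 1), (31, 1), (73, 1)]
      [2, 73] (by decide +kernel)
      (by simp only [List.forall_mem_cons, List.not_mem_nil]; norm_num) (by decide +kernel) (by decide +kernel) hpf.1
      (by simp [hp2, hpl])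
  · have hT : HasT ↥(chevE6.group F) 757 (red 3 757) := hasT_E6_9 h3 (by norm_num) (by norm_num)
    have ho := ord1 (q := 3) (P := 757) (l := 757) (by norm_num) (by norm_num)
      (by rw [red_of_not_dvd (by norm_num)])
    rw [red_of_not_dvd (by norm_num)] at hT
    have hrq : r ∣ 3 := h3 ▸ hq ▸ dvd_pow_self r he.ne'
    have hr3 : r = 3 := (Nat.prime_dvd_prime_iff_eq Fact.out Nat.prime_three).1 hrq
    subst hr3
    refine inner_case' hT (by norm_num) (fun h => h) (by rw [hcen_dim]; norm_num) (l1 := 757) (h := 9) (by norm_num)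
      dvd_rfl ?_ fun hl _ hx hcen hord => noNorm_E6 3 hl hx hcen (Or.inl rfl) hord
    intro k hk
    rw [Nat.card_eq_fintype_card, h3, Cfsg.Agent.Lib.Zsigmondy.dvd_pow_sub_one_iff (by norm_num), ho] at hk
    exact hk

/-- **The row of `E6`, except `p = 3 ∣ q - 1`.** -/
theorem row' {F : Type u} [Field F] [Fintype F] [IsSimpleGroup ↥(chevE6.group F)] {p : ℕ} [hpf : Fact p.Prime]
    (hp2 : p ≠ 2) (hp3 : p = 3 → ¬ 3 ∣ Fintype.card F - 1) : Row p ↥(chevE6.group F) := by
  obtain ⟨r, hr⟩ := CharP.exists F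
  have : Fact r.Prime := ⟨CharP.char_is_prime F r⟩
  obtain ⟨e, -, he⟩ := FiniteField.card F r
  rcases le_or_gt 4 (Fintype.card F) with h | h
  · exact row_big he e.pos h hp2 hp3
  · exact row_small he e.pos (by omega) hp2

end Cfsg.Agent.H719.RowE6
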