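import Cfsg.Agent.H719.BigE8

/-!
# The row of E8 (helper719)
-/

set_option autoImplicit false
set_option linter.unusedSectionVars false
set_option linter.unusedVariables false

namespace Cfsg.Agent.H719.RowE8

open Subgroup Cfsg Cfsg.Lie Cfsg.Lie.ChevalleyDatum
open Cfsg.Agent.ChevalleyStructure Cfsg.Agent.ChevalleyStructure.Elts Cfsg.Agent.ChevalleyStructure.CoxeterGeom
  Cfsg.Agent.ChevalleyStructure.CoxeterGeomTypes
open Cfsg.Agent.Nodes.RGDChev
open Cfsg.Agent.H129.TorusChar
open Cfsg.Agent.H568 Cfsg.Agent.H568.FldExc Cfsg.Agent.H719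

universe u

theorem row_small {F : Type u} [Field F] [Fintype F] [IsSimpleGroup ↥(chevE8.group F)] {r e : ℕ} [Fact r.Prime] [CharP F r]
    (hq : Fintype.card F = r ^ e) (he : 0 < e) (hqm : Fintype.card F ≤ 2) {p : ℕ} [hpf : Fact p.Prime] (hp2 : p ≠ 2) :
    Row p ↥(chevE8.group F) := by
  have hp : IsType chevE8 8 CoxeterMatrix.E₈ := by simp [IsType, typeList]
  have hna : ¬ IsMulCommutative ↥(chevE8.group F) := (Cfsg.Agent.S1054.result chevE8 (by simp)).2
  have hc : p.Coprime 1 ∨ ∀ a : F, ∃ b : F, b ^ 1 = a := Or.inl (Nat.coprime_one_right p)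
  refine row_gen hp hna hq he invC_E8 (by norm_num) (AutInv.inv_E8 _) ordF_E8 hp2 hc ?_
    fun h => (small_e Fact.out hq (by omega) he hpf.1 hp2 h).elim
  intro _ _
  have hq2 : 2 ≤ Fintype.card F := Fintype.one_lt_card
  have h2 : Fintype.card F = 2 := by omega
  have hT : HasT ↥(chevE8.group F) 331 (red 2 331) := hasT_E8_30 h2 (by norm_num) (by norm_num)
  have ho := ord1 (q := 2) (P := 331) (l := 331) (by norm_num) (by norm_num)
    (by rw [red_of_not_dvd (by norm_num)])
  rw [red_of_not_dvd (by norm_num)] at hT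
  have hrq : r ∣ 2 := h2 ▸ hq ▸ dvd_pow_self r he.ne'
  have hr2 : r = 2 := (Nat.prime_dvd_prime_iff_eq Fact.out Nat.prime_two).1 hrq
  subst hr2
  refine inner_case' hT (by norm_num) (fun h => h) (by rw [hcen_dim]; norm_num) (l1 := 331) (h := 30) (by norm_num)
    dvd_rfl ?_ fun hl _ hx hcen hord => noNorm_E8 2 hl hx hcen (Or.inr rfl) hord
  intro k hk
  rw [Nat.card_eq_fintype_card, h2, Cfsg.Agent.Lib.Zsigmondy.dvd_pow_sub_one_iff (by norm_num), ho] at hk
  exact hk

/-- **The row of `E8`.** -/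
theorem row {F : Type u} [Field F] [Fintype F] [IsSimpleGroup ↥(chevE8.group F)] {p : ℕ} [hpf : Fact p.Prime]
    (hp2 : p ≠ 2) : Row p ↥(chevE8.group F) := by
  obtain ⟨r, hr⟩ := CharP.exists F
  have : Fact r.Prime := ⟨CharP.char_is_prime F r⟩
  obtain ⟨e, -, he⟩ := FiniteField.card F r
  rcases le_or_gt 3 (Fintype.card F) with h | h
  · exact row_big he e.pos h hp2
  · exact row_small he e.pos (by omega) hp2

end Cfsg.Agent.H719.RowE8
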