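import Cfsg.Agent.H719.BigF4
import Cfsg.Agent.S1062

/-!
# The row of F4 (helper719)
-/

set_option autoImplicit false
set_option linter.unusedSectionVars false
set_option linter.unusedVariables false

namespace Cfsg.Agent.H719.RowF4

open Subgroup Cfsg Cfsg.Lie Cfsg.Lie.ChevalleyDatum
open Cfsg.Agent.ChevalleyStructure Cfsg.Agent.ChevalleyStructure.Elts Cfsg.Agent.ChevalleyStructure.CoxeterGeom
  Cfsg.Agent.ChevalleyStructure.CoxeterGeomTypes
open Cfsg.Agent.Nodes.RGDChev
open Cfsg.Agent.H129.TorusChar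
open Cfsg.Agent.H568 Cfsg.Agent.H568.FldExc Cfsg.Agent.H719

universe u

theorem row_small {F : Type u} [Field F] [Fintype F] [IsSimpleGroup ↥(chevF4.group F)] {r e : ℕ} [Fact r.Prime] [CharP F r]
    (hq : Fintype.card F = r ^ e) (he : 0 < e) (hqm : Fintype.card F ≤ 3) {p : ℕ} [hpf : Fact p.Prime] (hp2 : p ≠ 2) :
    Row p ↥(chevF4.group F) := by
  have hp : IsType chevF4 4 CoxeterMatrix.F₄ := by simp [IsType, typeList]
  have hna : ¬ IsMulCommutative ↥(chevF4.group F) := (Cfsg.Agent.S1054.result chevF4 (by simp)).2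
  have hc : p.Coprime 1 ∨ ∀ a : F, ∃ b : F, b ^ 1 = a := Or.inl (Nat.coprime_one_right p)
  refine row_gen hp hna hq he invC_F4 (by norm_num) (AutInv.inv_F4 _) ordF_F4 hp2 hc ?_
    fun h => (small_e Fact.out hq (by omega) he hpf.1 hp2 h).elim
  intro _ _
  have hq2 : 2 ≤ Fintype.card F := Fintype.one_lt_card
  have h23 : Fintype.card F = 2 ∨ Fintype.card F = 3 := by omega
  rcases h23 with h2 | h3
  · have hT : HasT ↥(chevF4.group F) 17 (red 2 17) := hasT_F4_8 h2 (by norm_num) (by norm_num)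
    rw [red_of_not_dvd (by norm_num)] at hT
    refine small_case hT (by norm_num) (fun h => (Nat.prime_dvd_prime_iff_eq hpf.1 (by norm_num)).1 h)
      (Cfsg.Agent.S1062.result h2) ?_
    intro hpl
    exact ord_of_facs [(2, 24), (3, 6), (5, 2), (7, 2), (13, 1), (17, 1)] [2, 17] (by decide +kernel)
      (by simp only [List.forall_mem_cons, List.not_mem_nil]; norm_num) (by decide +kernel) (by decide +kernel) hpf.1
      (by simp [hp2, hpl])
  · have hT : HasT ↥(chevF4.group F) 73 (red 2 73) := hasT_F4_12 h3 (by norm_num) (by norm_num)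
    have ho := ord1 (q := 3) (P := 73) (l := 73) (by norm_num) (by norm_num)
      (by rw [red_of_not_dvd (by norm_num)])
    rw [red_of_not_dvd (by norm_num)] at hT
    have hrq : r ∣ 3 := h3 ▸ hq ▸ dvd_pow_self r he.ne'
    have hr3 : r = 3 := (Nat.prime_dvd_prime_iff_eq Fact.out Nat.prime_three).1 hrq
    subst hr3
    refine inner_case' hT (by norm_num) (fun h => h) (by rw [hcen_dim]; norm_num) (l1 := 73) (h := 12) (by norm_num)
      dvd_rfl ?_ fun hl _ hx hcen hord => noNorm_F4 3 hl hx hcen (Or.inr rfl) hord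
    intro k hk
    rw [Nat.card_eq_fintype_card, h3, Cfsg.Agent.Lib.Zsigmondy.dvd_pow_sub_one_iff (by norm_num), ho] at hk
    exact hk

/-- **The row of `F4`.** -/
theorem row {F : Type u} [Field F] [Fintype F] [IsSimpleGroup ↥(chevF4.group F)] {p : ℕ} [hpf : Fact p.Prime]
    (hp2 : p ≠ 2) : Row p ↥(chevF4.group F) := by
  obtain ⟨r, hr⟩ := CharP.exists F
  have : Fact r.Prime := ⟨CharP.char_is_prime F r⟩
  obtain ⟨e, -, he⟩ := FiniteField.card F r
  rcases le_or_gt 4 (Fintype.card F) with h | h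
  · exact row_big he e.pos h hp2
  · exact row_small he e.pos (by omega) hp2

end Cfsg.Agent.H719.RowF4
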