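import Cfsg.Agent.H719.BigG2
import Cfsg.Agent.S1059

/-!
# The row of G2 (helper719)

`G₂(4)`, `p = 3` needs a nonabelian 3-subgroup.
-/

set_option autoImplicit false
set_option linter.unusedSectionVars false
set_option linter.unusedVariables false

namespace Cfsg.Agent.H719.RowG2

open Subgroup Cfsg Cfsg.Lie Cfsg.Lie.ChevalleyDatum
open Cfsg.Agent.H568

/-- The number of elements of a `p`-subgroup normalised by `x`. -/
theorem dvd_card_sub_one {S : Type*} [Group S] {p : ℕ} [hp : Fact p.Prime] [Finite S] {x : S} {l : ℕ} (hl : l.Prime)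
    (hx : orderOf x = l) (hcen : ∀ y : S, orderOf y = p → x * y ≠ y * x) {Q : Subgroup S} (hQ : IsPGroup p Q)
    (hn : x ∈ normalizer (Q : Set S)) : l ∣ Nat.card Q - 1 := by
  classical
  have : Fact l.Prime := ⟨hl⟩
  have hn' : zpowers x ≤ normalizer (Q : Set S) := by rwa [zpowers_le]
  let act : MulAction ↥(zpowers x) ↥Q :=
    { smul := fun z y => ⟨(z : S) * y * (z : S)⁻¹, (mem_normalizer_iff.1 (hn' z.2) y).1 y.2⟩
      one_smul := fun y => Subtype.ext (by show ((1 : ↥(zpowers x)) : S) * y * ((1 : ↥(zpowers x)) : S)⁻¹ = y; simp)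
      mul_smul := fun z z' y => Subtype.ext (by
        show ((z * z' : ↥(zpowers x)) : S) * y * ((z * z' : ↥(zpowers x)) : S)⁻¹ =
          (z : S) * ((z' : S) * y * (z' : S)⁻¹) * (z : S)⁻¹
        simp [mul_assoc]) }
  have hsm : ∀ (z : ↥(zpowers x)) (y : ↥Q), ((z • y : ↥Q) : S) = (z : S) * y * (z : S)⁻¹ := fun _ _ => rfl
  have hlg : IsPGroup l ↥(zpowers x) := IsPGroup.of_card (n := 1) (by rw [Nat.card_zpowers, hx, pow_one])
  have h1 := hlg.card_modEq_card_fixedPoints (↥Q)
  have h2 : Nat.card (MulAction.fixedPoints ↥(zpowers x) ↥Q) = 1 := by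
    rw [Nat.card_eq_one_iff_unique]
    refine ⟨⟨?_⟩, ⟨⟨1, ?_⟩⟩⟩
    · have h3 : ∀ y : MulAction.fixedPoints ↥(zpowers x) ↥Q, ((y : ↥Q) : S) = 1 := by
        rintro ⟨y, hy⟩
        have h4 := congrArg Subtype.val (hy ⟨x, mem_zpowers x⟩)
        rw [hsm] at h4
        have h5 : x * (y : S) = y * x := mul_inv_eq_iff_eq_mul.1 h4
        by_contra hne
        obtain ⟨j, hj⟩ := hQ y
        have hj' : (y : S) ^ p ^ j = 1 := by simpa using congrArg Subtype.val hj
        obtain ⟨i, -, hi⟩ := (Nat.dvd_prime_pow hp.1).1 (orderOf_dvd_of_pow_eq_one hj')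
        have hi0 : i ≠ 0 := by
          rintro rfl
          rw [pow_zero, orderOf_eq_one_iff] at hi
          exact hne hi
        obtain ⟨i', rfl⟩ := Nat.exists_eq_succ_of_ne_zero hi0
        have h6 : orderOf ((y : S) ^ p ^ i') = p := by
          rw [orderOf_pow_of_dvd (pow_ne_zero _ hp.1.ne_zero) (by rw [hi]; exact pow_dvd_pow _ (Nat.le_succ _)), hi,
            Nat.pow_div (Nat.le_succ _) hp.1.pos]
          simp
        exact hcen _ h6 ((show Commute x (y : S) from h5).pow_right _).eq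
      intro y y'
      exact Subtype.ext (Subtype.ext ((h3 y).trans (h3 y').symm))
    · intro z
      exact Subtype.ext (by rw [hsm]; simp)
  rw [h2] at h1
  exact (Nat.modEq_iff_dvd' Nat.card_pos).1 h1.symm

theorem normalizer_commutator {S : Type*} [Group S] {Q : Subgroup S} {x : S} (hn : x ∈ normalizer (Q : Set S)) :
    x ∈ normalizer ((⁅Q, Q⁆ : Subgroup S) : Set S) := by
  have h1 : ∀ K : Subgroup S, x ∈ normalizer (K : Set S) ↔ K.map (MulAut.conj x).toMonoidHom = K := by
    intro K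
    constructor
    · intro h
      ext y
      constructor
      · rintro ⟨z, hz, rfl⟩
        exact (mem_normalizer_iff.1 h z).1 hz
      · intro hy
        refine ⟨x⁻¹ * y * x, ?_, ?_⟩
        · have := (mem_normalizer_iff.1 h (x⁻¹ * y * x)).2
          apply this
          have h2 : x * (x⁻¹ * y * x) * x⁻¹ = y := by group
          rw [h2]; exact hy
        · show x * (x⁻¹ * y * x) * x⁻¹ = y
          group
    · intro h
      rw [mem_normalizer_iff]
      intro z
      constructor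
      · intro hz
        rw [← h]
        exact ⟨z, hz, rfl⟩
      · intro hz
        rw [← h] at hz
        obtain ⟨y, hy, hyz⟩ := hz
        have h3 : x * y * x⁻¹ = x * z * x⁻¹ := hyz
        have h4 : y = z := mul_left_cancel (mul_right_cancel h3)
        exact h4 ▸ hy
  rw [h1, Subgroup.map_commutator, (h1 Q).1 hn]

/-- If `p`-subgroups of order `< p ^ m` cannot be normalised and the Sylow `p`-subgroups of order `p ^ m` are not
abelian. -/
theorem noNorm_of_nonabelian {S : Type*} [Group S] {p : ℕ} [hp : Fact p.Prime] [Finite S] {x : S} {l : ℕ}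
    (hl : l.Prime) (hx : orderOf x = l) (hcen : ∀ y : S, orderOf y = p → x * y ≠ y * x) {m : ℕ}
    (hm : ¬ p ^ (m + 1) ∣ Nat.card S) (hord : ∀ k, 0 < k → k < m → ¬ l ∣ p ^ k - 1) {a b : S} (hab : a * b ≠ b * a)
    {P0 : Subgroup S} (hP0 : IsPGroup p P0) (ha : a ∈ P0) (hb : b ∈ P0) : NoNorm p x := by
  intro Q hQ hn
  by_contra hb1
  have key : ∀ K : Subgroup S, IsPGroup p K → x ∈ normalizer (K : Set S) → K ≠ ⊥ → Nat.card K = p ^ m := by
    intro K hK hxK hK1
    obtain ⟨k, hk⟩ := IsPGroup.iff_card.1 hK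
    have hk0 : 0 < k := by
      rcases Nat.eq_zero_or_pos k with rfl | h0
      · rw [pow_zero, Subgroup.card_eq_one] at hk
        exact absurd hk hK1
      · exact h0
    have h1 := dvd_card_sub_one hl hx hcen hK hxK
    rw [hk] at h1
    have h2 : m ≤ k := by
      by_contra hcon
      exact hord k hk0 (not_le.1 hcon) h1
    have h3 : k ≤ m := by
      by_contra hcon
      apply hm
      refine (pow_dvd_pow p (not_le.1 hcon)).trans ?_
      rw [← hk]
      exact Subgroup.card_subgroup_dvd_card K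
    rw [hk, le_antisymm h3 h2]
  have hQc := key Q hQ hn hb1
  have hQ' : ⁅Q, Q⁆ = ⊥ := by
    by_contra hne
    have hle : ⁅Q, Q⁆ ≤ Q := by
      rw [Subgroup.commutator_le]
      intro u hu v hv
      exact Q.mul_mem (Q.mul_mem (Q.mul_mem hu hv) (Q.inv_mem hu)) (Q.inv_mem hv)
    have h1 := key ⁅Q, Q⁆ (hQ.to_le hle) (normalizer_commutator hn) hne
    have h2 : ⁅Q, Q⁆ = Q := Subgroup.eq_of_le_of_card_ge hle (by rw [h1, hQc])
    have hnt : Nontrivial ↥Q := (Subgroup.nontrivial_iff_ne_bot Q).2 hb1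
    have hsol : Group.IsSolvable ↥Q := by
      have : Group.IsNilpotent ↥Q := hQ.isNilpotent
      infer_instance
    have h3 : commutator ↥Q < ⊤ := Group.IsSolvable.commutator_lt_top_of_nontrivial ↥Q
    apply h3.ne
    rw [eq_top_iff]
    intro u _
    have h4 : (u : S) ∈ (commutator ↥Q).map Q.subtype := by
      rw [Subgroup.map_subtype_commutator, h2]
      exact u.2
    obtain ⟨v, hv, hvu⟩ := h4
    have h5 : v = u := Subtype.ext hvu
    exact h5 ▸ hv
  have hcomm : ∀ u ∈ Q, ∀ v ∈ Q, u * v = v * u := by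
    intro u hu v hv
    have h1 : u * v * u⁻¹ * v⁻¹ ∈ ⁅Q, Q⁆ := Subgroup.commutator_mem_commutator hu hv
    rw [hQ', mem_bot, mul_inv_eq_one, mul_inv_eq_iff_eq_mul] at h1
    exact h1
  -- `Q` is a Sylow subgroup
  obtain ⟨P1, hP1⟩ := hP0.exists_le_sylow
  obtain ⟨P2, hP2⟩ := hQ.exists_le_sylow
  have hQP : Q = (P2 : Subgroup S) := by
    refine Subgroup.eq_of_le_of_card_ge hP2 ?_
    obtain ⟨k, hk⟩ := IsPGroup.iff_card.1 P2.isPGroup'
    rw [hk, hQc]
    refine Nat.pow_le_pow_right hp.1.pos ?_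
    by_contra hcon
    apply hm
    refine (pow_dvd_pow p (not_le.1 hcon)).trans ?_
    rw [← hk]
    exact Subgroup.card_subgroup_dvd_card _
  obtain ⟨g, hg⟩ := MulAction.exists_smul_eq S P1 P2
  have hc : ∀ u ∈ (P1 : Subgroup S), g * u * g⁻¹ ∈ Q := by
    intro u hu
    have h1 : MulAut.conj g u ∈ (g • P1 : Sylow p S) := by
      rw [Sylow.smul_def]
      exact smul_mem_pointwise_smul _ _ _ hu
    rw [hg] at h1
    rw [hQP]
    exact h1
  apply hab
  have h1 := hcomm _ (hc a (hP1 ha)) _ (hc b (hP1 hb))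
  have h2 : g * (a * b) * g⁻¹ = g * (b * a) * g⁻¹ := by
    calc g * (a * b) * g⁻¹ = (g * a * g⁻¹) * (g * b * g⁻¹) := by group
      _ = (g * b * g⁻¹) * (g * a * g⁻¹) := h1
      _ = g * (b * a) * g⁻¹ := by group
  exact mul_left_cancel (mul_right_cancel h2)

section G2

open CoxeterSystem
open Cfsg.Agent.ChevalleyStructure Cfsg.Agent.ChevalleyStructure.Elts Cfsg.Agent.ChevalleyStructure.CoxeterGeom
  Cfsg.Agent.ChevalleyStructure.CoxeterGeomTypes Cfsg.Agent.ChevalleyStructure.NPerm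
open Cfsg.Agent.Tits.Roots Cfsg.Agent.Tits.Core Cfsg.Agent.Nodes Cfsg.Agent.Nodes.Reps Cfsg.Agent.Nodes.BNOf
  Cfsg.Agent.Nodes.RGDChev
open Cfsg.Agent.KFacts.RgdChevCoord Cfsg.Agent.GpExc.Field Cfsg.Agent.BpExc.Fr Cfsg.Agent.BpExc.LangFr
  Cfsg.Agent.BpExc.TowChev Cfsg.Agent.BpExc
open Cfsg.Agent.H129.TorusChar Cfsg.Agent.H129.TorusCent Cfsg.Agent.H129.TorusTw Cfsg.Agent.H129.TorusMain
  Cfsg.Agent.H129.TorusUntw Cfsg.Agent.H129.WData Cfsg.Agent.H719 Cfsg.Agent.H568.FldExc

universe u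

theorem locFin_of_finite (F : Type u) [Field F] [Finite F] : LocFin F := by
  intro S _
  exact ⟨⊤, inferInstance, fun x _ => Subfield.mem_top x⟩

/-- A nonabelian 3-subgroup of `G₂(4)`. -/
theorem nonabelian {F : Type u} [Field F] [Fintype F] (h4 : Fintype.card F = 4) :
    ∃ (P0 : Subgroup ↥(chevG2.group F)) (a b : ↥(chevG2.group F)), IsPGroup 3 P0 ∧ a ∈ P0 ∧ b ∈ P0 ∧ a * b ≠ b * a := by
  classical
  have hp : IsType chevG2 2 CoxeterMatrix.G₂ := by simp [IsType, typeList]
  obtain ⟨r, hr⟩ := CharP.exists F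
  have : Fact r.Prime := ⟨CharP.char_is_prime F r⟩
  let cs := CoxeterMatrix.G₂.toCoxeterSystem
  have hk := locFin_of_finite F
  have hW : Nat.card CoxeterMatrix.G₂.Group = 12 := Cfsg.Agent.S1092.result (⟨2, CoxeterMatrix.G₂⟩, 12) (by simp)
  have : Finite CoxeterMatrix.G₂.Group := Nat.finite_of_card_ne_zero (by rw [hW]; norm_num)
  have hN : NSys CoxeterMatrix.G₂ (TT chevG2 F) (nc hp F) := nsys_of_locFin hp cs hk r
  set w := cs.wordProd (TG2_3.chain.map Prod.fst) with hw
  obtain ⟨g, hg⟩ := exists_rp cs hN w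
  have hpow : ∀ n : ℕ, Rp cs hN (w ^ n) (g ^ n) := by
    intro n
    induction n with
    | zero => rw [pow_zero, pow_zero]; exact rp_one
    | succ n ih => rw [pow_succ, pow_succ]; exact ih.mul hg
  have hg4 := hpow 4
  have hg12 : (g ^ 4) ^ 3 ∈ TT chevG2 F := by
    have h1 := hpow 12
    have h2 : w ^ 12 = 1 := by rw [← hW, pow_card_eq_one']
    rw [h2] at h1
    rw [← pow_mul]
    exact h1.mem_of_one
  -- the torus has exponent 3
  have hT3 : ∀ t ∈ TT chevG2 F, t ^ 3 = 1 := by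
    intro t ht
    refine cX_inj hp (pow_mem ht 3) (one_mem _) fun i => ?_
    rw [cX_pow hp ht, cX_one hp]
    have h1 : cX hp t (sr i) ≠ 0 := (isMC_cX hp ht).ne_zero _
    have h2 := FiniteField.pow_card_sub_one_eq_one (cX hp t (sr i)) h1
    rwa [h4] at h2
  have hT : IsPGroup 3 ↥(TT chevG2 F) := by
    intro t
    exact ⟨1, Subtype.ext (by rw [pow_one]; exact hT3 t t.2)⟩
  have hG : IsPGroup 3 ↥(zpowers (g ^ 4)) := by
    rw [IsPGroup.iff_orderOf]
    rintro ⟨_, m, rfl⟩
    have h1 : (((g ^ 4) ^ m : ↥(chevG2.group F))) ^ 3 ^ 2 = 1 := by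
      have h2 : ((g ^ 4 : ↥(chevG2.group F))) ^ 3 ^ 2 = 1 := by
        have h3 := hT3 _ hg12
        rw [← pow_mul] at h3
        exact h3
      rw [← zpow_natCast, ← zpow_mul, mul_comm, zpow_mul, zpow_natCast, h2, one_zpow]
    obtain ⟨j, -, hj⟩ := (Nat.dvd_prime_pow Nat.prime_three).1 (orderOf_dvd_of_pow_eq_one h1)
    exact ⟨j, by rw [← hj]; exact (Subgroup.orderOf_coe _).symm⟩
  -- the element of the torus
  obtain ⟨ω, hω⟩ : ∃ ω : F, ω ≠ 0 ∧ ω ≠ 1 := ne_one (by omega)
  have hc : ∀ i : Fin 2, (![1, ω] : Fin 2 → F) i ≠ 0 := by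
    intro i
    fin_cases i
    · exact one_ne_zero
    · exact hω.1
  obtain ⟨t, ht, htφ⟩ := exists_cX hp invC_G2 one_ne_zero (IsMC.of_prod (![1, ω] : Fin 2 → F) hc)
    (fun i => ⟨_, pow_one _⟩)
  refine ⟨TT chevG2 F ⊔ zpowers (g ^ 4), t, g ^ 4, IsPGroup.to_sup_of_normal_left' hT hG ?_, ?_, ?_, ?_⟩
  · rw [zpowers_le]
    exact hg4.mem_normalizer
  · exact le_sup_left (a := TT chevG2 F) ht
  · exact le_sup_right (a := TT chevG2 F) (mem_zpowers _)
  · intro hcomm
    have h1 : g ^ 4 * t * (g ^ 4)⁻¹ = t := by rw [← hcomm, mul_inv_cancel_right]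
    have h2 := cX_rp hp cs (hN := hN) hk r hg4 ht (sr 0)
    rw [h1] at h2
    have hstep : ∀ a b : ℤ, rep cs hp.isCartan w ![a, b] = ![-2 * a + 3 * b, - a + b] := by
      intro a b
      have hl := (lin_refl hp cs TG2_3.hA TG2_3.chainOK).apply ![a, b]
      have hth : ∀ x, theta hp cs w (AddEquiv.refl (Fin 2 → ℤ)) x = rep cs hp.isCartan w x := fun x => by
        rw [theta_apply, AddEquiv.refl_apply]
      rw [← hw] at hl
      rw [← hth]
      funext m
      rw [hl]
      fin_cases m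
      · simp [Fin.sum_univ_two, TG2_3.chain, hd]; ring
      · simp [Fin.sum_univ_two, TG2_3.chain, hd]
    have hsr : (sr 0 : Fin 2 → ℤ) = ![1, 0] := by
      funext m
      fin_cases m
      · exact sr_self _
      · exact sr_ne (by decide)
    have hrep : rep cs hp.isCartan (w ^ 4) (sr 0) = ![-2, -1] := by
      rw [hsr, pow_succ, pow_succ, pow_succ, pow_one, rep_mul_apply, rep_mul_apply, rep_mul_apply, hstep, hstep, hstep,
        hstep]
      norm_num
    rw [hrep, hsr, htφ, htφ] at h2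
    simp only [Fin.prod_univ_two, Matrix.cons_val_zero, Matrix.cons_val_one, one_zpow, one_mul, zpow_zero] at h2
    rw [zpow_neg_one, inv_eq_one] at h2
    exact hω.2 h2

/-- **`G₂(4)`, `p = 3`.** -/
theorem noNorm_four {F : Type u} [Field F] [Fintype F] (h4 : Fintype.card F = 4) :
    ∃ x : ↥(chevG2.group F), NoNorm 3 x := by
  have hfin := finite_group chevG2 F
  have : Fact (Nat.Prime 3) := ⟨Nat.prime_three⟩
  have hT : HasT ↥(chevG2.group F) 13 (red 3 13) := hasT_G2_6 h4 (by norm_num) (by norm_num)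
  rw [red_of_not_dvd (by norm_num)] at hT
  obtain ⟨x, hx, hc⟩ := hT
  have hx1 : x ≠ 1 := by
    rintro rfl
    rw [orderOf_one] at hx
    omega
  obtain ⟨P0, a, b, hP0, ha, hb, hab⟩ := nonabelian h4
  refine ⟨x, noNorm_of_nonabelian (m := 3) (by norm_num) hx (fun z hz => ?_) ?_ ?_ hab hP0 ha hb⟩
  · exact (not_comm_of_not_dvd (by norm_num) ((hc x (mem_zpowers x) hx1).2 z) hz).symm
  · rw [Cfsg.Agent.S1059.result h4]
    norm_num
  · intro k hk hk3
    interval_cases k <;> norm_num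

theorem row_small {F : Type u} [Field F] [Fintype F] [IsSimpleGroup ↥(chevG2.group F)] {r e : ℕ} [Fact r.Prime] [CharP F r]
    (hq : Fintype.card F = r ^ e) (he : 0 < e) (hqm : Fintype.card F ≤ 5) (hq3 : 3 ≤ Fintype.card F)
    {p : ℕ} [hpf : Fact p.Prime] (hp2 : p ≠ 2) :
    Row p ↥(chevG2.group F) := by
  have hp : IsType chevG2 2 CoxeterMatrix.G₂ := by simp [IsType, typeList]
  have hna : ¬ IsMulCommutative ↥(chevG2.group F) := (Cfsg.Agent.S1055.result (ne_one (by omega))).2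
  have hc : p.Coprime 1 ∨ ∀ a : F, ∃ b : F, b ^ 1 = a := Or.inl (Nat.coprime_one_right p)
  refine row_gen hp hna hq he invC_G2 (by norm_num) (AutInv.inv_G2 _) ordF_G2 hp2 hc ?_
    fun h => (small_e Fact.out hq (by omega) he hpf.1 hp2 h).elim
  intro _ _
  have h345 : Fintype.card F = 3 ∨ Fintype.card F = 4 ∨ Fintype.card F = 5 := by omega
  rcases h345 with h3 | h4 | h5
  · have hT : HasT ↥(chevG2.group F) 13 (red 3 13) := hasT_G2_3 h3 (by norm_num) (by norm_num)
    have ho := ord1 (q := 3) (P := 13) (l := 13) (by norm_num) (by norm_num)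
      (by rw [red_of_not_dvd (by norm_num)])
    rw [red_of_not_dvd (by norm_num)] at hT
    have hrq : r ∣ 3 := h3 ▸ hq ▸ dvd_pow_self r he.ne'
    have hr3 : r = 3 := (Nat.prime_dvd_prime_iff_eq Fact.out Nat.prime_three).1 hrq
    subst hr3
    by_cases hp3 : p = 3
    · subst hp3
      obtain ⟨x, hx, -⟩ := own_char hT (by norm_num) (l := 13) (h := 3) (by norm_num) dvd_rfl (fun k hk => by
        rw [Nat.card_eq_fintype_card, h3, Cfsg.Agent.Lib.Zsigmondy.dvd_pow_sub_one_iff (by norm_num), ho] at hk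
        exact hk) (fun hl _ hx hcen hord => noNorm_G2 3 hl hx hcen (Or.inl rfl) hord)
      exact Or.inr ⟨x, hx⟩
    · refine small_case hT (by norm_num) (fun h => (Nat.prime_dvd_prime_iff_eq hpf.1 (by norm_num)).1 h)
        (Cfsg.Agent.S1059.result h3) ?_
      intro hpl
      exact ord_of_facs [(2, 6), (3, 6), (7, 1), (13, 1)] [2, 3, 13] (by decide +kernel)
        (by simp only [List.forall_mem_cons, List.not_mem_nil]; norm_num) (by decide +kernel) (by decide +kernel) hpf.1
        (by simp [hp2, hpl, hp3])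
  · by_cases hp3 : p = 3
    · subst hp3
      exact Or.inr (noNorm_four h4)
    · have hT : HasT ↥(chevG2.group F) 13 (red 3 13) := hasT_G2_6 h4 (by norm_num) (by norm_num)
      rw [red_of_not_dvd (by norm_num)] at hT
      refine small_case hT (by norm_num) (fun h => (Nat.prime_dvd_prime_iff_eq hpf.1 (by norm_num)).1 h)
        (Cfsg.Agent.S1059.result h4) ?_
      intro hpl
      exact ord_of_facs [(2, 12), (3, 3), (5, 2), (7, 1), (13, 1)] [2, 3, 13] (by decide +kernel)
        (by simp only [List.forall_mem_cons, List.not_mem_nil]; norm_num) (by decide +kernel) (by decide +kernel) hpf.1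
        (by simp [hp2, hpl, hp3])
  · have hT : HasT ↥(chevG2.group F) 31 (red 3 31) := hasT_G2_3 h5 (by norm_num) (by norm_num)
    have ho := ord1 (q := 5) (P := 31) (l := 31) (by norm_num) (by norm_num)
      (by rw [red_of_not_dvd (by norm_num)])
    rw [red_of_not_dvd (by norm_num)] at hT
    have hrq : r ∣ 5 := h5 ▸ hq ▸ dvd_pow_self r he.ne'
    have hr5 : r = 5 := (Nat.prime_dvd_prime_iff_eq Fact.out Nat.prime_five).1 hrq
    subst hr5
    refine inner_case' hT (by norm_num) (fun h => h) (by rw [hcen_dim]; norm_num) (l1 := 31) (h := 3) (by norm_num)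
      dvd_rfl ?_ fun hl _ hx hcen hord => noNorm_G2 5 hl hx hcen (Or.inl rfl) hord
    intro k hk
    rw [Nat.card_eq_fintype_card, h5, Cfsg.Agent.Lib.Zsigmondy.dvd_pow_sub_one_iff (by norm_num), ho] at hk
    exact hk

/-- **The row of `G2`.** -/
theorem row {F : Type u} [Field F] [Fintype F] [IsSimpleGroup ↥(chevG2.group F)] (h3 : 3 ≤ Fintype.card F) {p : ℕ}
    [hpf : Fact p.Prime] (hp2 : p ≠ 2) : Row p ↥(chevG2.group F) := by
  obtain ⟨r, hr⟩ := CharP.exists F
  have : Fact r.Prime := ⟨CharP.char_is_prime F r⟩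
  obtain ⟨e, -, he⟩ := FiniteField.card F r
  rcases le_or_gt 7 (Fintype.card F) with h | h
  · exact row_big he e.pos h hp2
  · refine row_small he e.pos ?_ h3 hp2
    by_contra hcon
    have h6 : Fintype.card F = 6 := by omega
    rw [h6] at he
    have h2 : 2 ∣ r ^ (e : ℕ) := he ▸ (by norm_num)
    have h3 : 3 ∣ r ^ (e : ℕ) := he ▸ (by norm_num)
    have h4 := (Nat.prime_dvd_prime_iff_eq Nat.prime_two this.1).1 (Nat.prime_two.dvd_of_dvd_pow h2)
    have h5 := (Nat.prime_dvd_prime_iff_eq Nat.prime_three this.1).1 (Nat.prime_three.dvd_of_dvd_pow h3)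
    omega

end G2

end Cfsg.Agent.H719.RowG2
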