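import Cfsg.Prelude.Def_LieChev
import Cfsg.Agent.H719.SmallG2
import Cfsg.Agent.H719.SmallF4
import Cfsg.Agent.H719.SmallE6
import Cfsg.Agent.H719.SmallE7
import Cfsg.Agent.H719.SmallE8
import Cfsg.Agent.H568.ESixThree

/-!
# The rows of S4329 for the groups G2, F4, E6, E7, E8 (helper719)
-/

set_option autoImplicit false
set_option linter.unusedSectionVars false

namespace Cfsg.Agent.H719

open Cfsg Cfsg.Lie
open Cfsg.Agent.H568

variable (K : Type*) [Group K] [Finite K] [hK : IsSimpleGroup K]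

theorem row_G2 (h : Lie.IsoChevG2 K) (p : ℕ) [Fact p.Prime] (hp : p ≠ 2) : Row p K := by
  obtain ⟨F, _, _, h3, ⟨e⟩⟩ := h
  have : IsSimpleGroup ↥(chevG2.group F) := (MulEquiv.isSimpleGroup_congr e).1 hK
  exact (RowG2.row h3 hp).congr e.symm

theorem row_F4 (h : Lie.IsoF4 K) (p : ℕ) [Fact p.Prime] (hp : p ≠ 2) : Row p K := by
  obtain ⟨F, _, _, ⟨e⟩⟩ := h
  have : IsSimpleGroup ↥(chevF4.group F) := (MulEquiv.isSimpleGroup_congr e).1 hK
  exact (RowF4.row hp).congr e.symm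

theorem row_E6 (h : Lie.IsoChevE6 K) (p : ℕ) [Fact p.Prime] (hp : p ≠ 2) : Row p K := by
  obtain ⟨F, _, _, ⟨e⟩⟩ := h
  have : IsSimpleGroup ↥(chevE6.group F) := (MulEquiv.isSimpleGroup_congr e).1 hK
  by_cases h3 : p = 3 ∧ 3 ∣ Fintype.card F - 1
  · obtain ⟨rfl, h3⟩ := h3
    exact (Cfsg.Agent.H568.ESixThree.e6_three h3).congr e.symm
  · exact (RowE6.row' hp fun h1 h2 => h3 ⟨h1, h2⟩).congr e.symm

theorem row_E7 (h : Lie.IsoE7 K) (p : ℕ) [Fact p.Prime] (hp : p ≠ 2) : Row p K := by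
  obtain ⟨F, _, _, ⟨e⟩⟩ := h
  have : IsSimpleGroup ↥(chevE7.group F) := (MulEquiv.isSimpleGroup_congr e).1 hK
  exact (RowE7.row hp).congr e.symm

theorem row_E8 (h : Lie.IsoE8 K) (p : ℕ) [Fact p.Prime] (hp : p ≠ 2) : Row p K := by
  obtain ⟨F, _, _, ⟨e⟩⟩ := h
  have : IsSimpleGroup ↥(chevE8.group F) := (MulEquiv.isSimpleGroup_congr e).1 hK
  exact (RowE8.row hp).congr e.symm

end Cfsg.Agent.H719
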